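import Mathlib

/-!
Distinguishing points for primitive groups that are not doubly transitive.
-/

set_option autoImplicit false

namespace Cfsg.Agent.Lib.MinDeg

open MulAction

open scoped Pointwise

universe u v

section basics

variable (G : Type u) {Ω : Type v} [Group G] [MulAction G Ω]

/-- The points `z` such that no element fixing `z` carries `x` to `y`. -/
def Dist (x y : Ω) : Set Ω := {z | ∀ h : G, h • z = z → h • x ≠ y}

/-- The number of points distinguishing `x` and `y`. -/
noncomputable def dd (x y : Ω) : ℕ := (Dist G x y).ncard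

variable {G}

theorem mem_Dist {x y z : Ω} : z ∈ Dist G x y ↔ ∀ h : G, h • z = z → h • x ≠ y := Iff.rfl

theorem Dist_smul (g : G) (x y : Ω) : Dist G (g • x) (g • y) = (fun z => g • z) '' Dist G x y := by
  ext w
  constructor
  · intro hw
    refine ⟨g⁻¹ • w, ?_, by simp⟩
    intro h hh hxy
    apply hw (g * h * g⁻¹)
    · rw [mul_smul, mul_smul, hh, smul_inv_smul]
    · rw [mul_smul, mul_smul, inv_smul_smul, hxy]
  · rintro ⟨z, hz, rfl⟩ h hh hxy
    apply hz (g⁻¹ * h * g)
    · simp only at hh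
      rw [mul_smul, mul_smul, hh, inv_smul_smul]
    · rw [mul_smul, mul_smul, hxy, inv_smul_smul]

theorem dd_smul (g : G) (x y : Ω) : dd G (g • x) (g • y) = dd G x y := by
  unfold dd
  rw [Dist_smul, Set.ncard_image_of_injective _ (MulAction.injective g)]

theorem Dist_comm (x y : Ω) : Dist G x y = Dist G y x := by
  have key : ∀ x y : Ω, Dist G x y ⊆ Dist G y x := by
    intro x y z hz h hh hxy
    apply hz h⁻¹
    · rw [inv_smul_eq_iff, hh]
    · rw [inv_smul_eq_iff, hxy]
  exact Set.Subset.antisymm (key x y) (key y x)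

theorem dd_comm (x y : Ω) : dd G x y = dd G y x := by
  unfold dd
  rw [Dist_comm]

theorem dd_self (x : Ω) : dd G x x = 0 := by
  have : Dist G x x = ∅ := by
    ext z
    simp only [Set.mem_empty_iff_false, iff_false]
    intro h
    exact h 1 (one_smul _ _) (one_smul _ _)
  unfold dd
  rw [this, Set.ncard_empty]

theorem dd_triangle [Finite Ω] (x v w : Ω) : dd G x w ≤ dd G x v + dd G v w := by
  unfold dd
  refine le_trans (Set.ncard_le_ncard ?_ (Set.toFinite _)) (Set.ncard_union_le _ _)
  intro z hz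
  by_contra hc
  simp only [Set.mem_union, not_or, mem_Dist, not_forall, not_not] at hc
  obtain ⟨⟨h₁, h₁z, h₁x⟩, ⟨h₂, h₂z, h₂v⟩⟩ := hc
  apply hz (h₂ * h₁)
  · rw [mul_smul, h₁z, h₂z]
  · rw [mul_smul, h₁x, h₂v]

theorem dd_le_moved [Finite Ω] (g : G) (x : Ω) : dd G x (g • x) ≤ {ω : Ω | g • ω ≠ ω}.ncard := by
  refine Set.ncard_le_ncard ?_ (Set.toFinite _)
  intro z hz hgz
  exact hz g hgz rfl

theorem mem_Dist_iff_notMem_orbit {x y z : Ω} : z ∈ Dist G x y ↔ y ∉ orbit (stabilizer G z) x := by
  constructor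
  · rintro hz ⟨h, hh⟩
    exact hz h h.2 hh
  · intro hy h hh hxy
    exact hy ⟨⟨h, hh⟩, hxy⟩

theorem ncard_orbit_smul [Finite Ω] (g : G) (z u : Ω) :
    (orbit (stabilizer G (g • z)) (g • u)).ncard = (orbit (stabilizer G z) u).ncard := by
  have h : orbit (stabilizer G (g • z)) (g • u) = (fun w => g • w) '' orbit (stabilizer G z) u := by
    ext w
    constructor
    · rintro ⟨⟨h, hh⟩, rfl⟩
      refine ⟨(g⁻¹ * h * g) • u, ⟨⟨g⁻¹ * h * g, ?_⟩, rfl⟩, ?_⟩
      · rw [mem_stabilizer_iff] at hh ⊢
        rw [mul_smul, mul_smul, hh, inv_smul_smul]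
      · simp [mul_smul]
    · rintro ⟨_, ⟨⟨h, hh⟩, rfl⟩, rfl⟩
      refine ⟨⟨g * h * g⁻¹, ?_⟩, ?_⟩
      · rw [mem_stabilizer_iff] at hh ⊢
        rw [mul_smul, mul_smul, inv_smul_smul, hh]
      · change (g * h * g⁻¹) • g • u = g • h • u
        simp [mul_smul]
  rw [h, Set.ncard_image_of_injective _ (MulAction.injective g)]

theorem dd_of_mem_orbit {x y z : Ω} (hz : z ∈ orbit (stabilizer G x) y) : dd G x z = dd G x y := by
  obtain ⟨⟨h, hh⟩, rfl⟩ := hz
  have h1 := dd_smul h x y
  rw [mem_stabilizer_iff] at hh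
  rw [hh] at h1
  exact h1

end basics

section primitive

variable {G : Type u} {Ω : Type v} [Group G] [MulAction G Ω]

/-- An equivariant family of sets that agrees at two distinct points is constant. -/
theorem eq_of_equivariant [IsPreprimitive G Ω] (N : Ω → Set Ω)
    (hN : ∀ (g : G) (a : Ω), N (g • a) = g • N a) {x y : Ω} (hxy : x ≠ y) (h : N x = N y) (a : Ω) :
    N a = N x := by
  let j : Ω →ₑ[@id G] Set Ω := ⟨N, hN⟩
  have hB : IsBlock G (j ⁻¹' {N x}) := IsBlock.preimage j IsBlock.singleton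
  rcases IsPreprimitive.isTrivialBlock_of_isBlock hB with h0 | h0
  · exact absurd (h0 (show x ∈ j ⁻¹' {N x} from rfl) (show y ∈ j ⁻¹' {N x} from h.symm)) hxy
  · have : a ∈ j ⁻¹' {N x} := by
      rw [h0]
      trivial
    exact this

variable [Finite G] [Finite Ω]

/-- The double counting lower bound. -/
theorem card_le_mul [IsPreprimitive G Ω] {x y : Ω} (hxy : x ≠ y) :
    Nat.card Ω ≤ (orbit (stabilizer G x) y).ncard * dd G x y := by
  classical
  haveI := Fintype.ofFinite Ω
  have hclaim : ∀ z : Ω, ∃ y' ∈ orbit (stabilizer G x) y, z ∈ Dist G x y' := by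
    intro z
    by_contra hc
    push Not at hc
    have hc' : ∀ y' ∈ orbit (stabilizer G x) y, ∃ h : G, h • z = z ∧ h • x = y' := by
      intro y' hy'
      have := hc y' hy'
      simp only [mem_Dist, not_forall, not_not] at this
      obtain ⟨h, hh, hx⟩ := this
      exact ⟨h, hh, hx⟩
    let N : Ω → Set Ω := fun a => {w | ∃ g : G, g • x = a ∧ g • z = w}
    have hN : ∀ (g : G) (a : Ω), N (g • a) = g • N a := by
      intro g a
      ext w
      constructor
      · rintro ⟨g', hg', rfl⟩
        refine Set.mem_smul_set.mpr ⟨g⁻¹ • g' • z, ⟨g⁻¹ * g', ?_, ?_⟩, by simp⟩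
        · rw [mul_smul, hg', inv_smul_smul]
        · rw [mul_smul]
      · rintro hw
        obtain ⟨w', ⟨g', hg', rfl⟩, rfl⟩ := Set.mem_smul_set.mp hw
        exact ⟨g * g', by rw [mul_smul, hg'], by rw [mul_smul]⟩
    have hsub : N x ⊆ N y := by
      rintro w ⟨g, hg, rfl⟩
      have hmem : g⁻¹ • y ∈ orbit (stabilizer G x) y := by
        refine ⟨⟨g⁻¹, ?_⟩, rfl⟩
        rw [mem_stabilizer_iff, inv_smul_eq_iff, hg]
      obtain ⟨h, hh, hx⟩ := hc' _ hmem
      refine ⟨g * h, ?_, ?_⟩
      · rw [mul_smul, hx, smul_inv_smul]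
      · rw [mul_smul, hh]
    have hcard : ∀ a b : Ω, (N a).ncard = (N b).ncard := by
      have key : ∀ (g : G) (a : Ω), (N (g • a)).ncard = (N a).ncard := by
        intro g a
        rw [hN, Set.ncard_smul_set]
      intro a b
      haveI : IsPretransitive G Ω := inferInstance
      obtain ⟨g, rfl⟩ := MulAction.exists_smul_eq G a b
      exact (key g a).symm
    have heq : N x = N y :=
      Set.eq_of_subset_of_ncard_le hsub (hcard y x).le (Set.toFinite _)
    have hall := eq_of_equivariant N hN hxy heq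
    have hzN : z ∈ N x := ⟨1, one_smul _ _, one_smul _ _⟩
    have hinv : ∀ g : G, g • z ∈ N x := by
      intro g
      have h1 : g • z ∈ N (g • x) := ⟨g, rfl, rfl⟩
      rwa [hall (g • x)] at h1
    obtain ⟨g, hg⟩ := MulAction.exists_smul_eq G z x
    obtain ⟨g₁, hg₁, hg₁z⟩ := hinv g
    rw [hg] at hg₁z
    have hzx : z = x := MulAction.injective g₁ (hg₁z.trans hg₁.symm)
    obtain ⟨g₂, hg₂⟩ := MulAction.exists_smul_eq G z y
    obtain ⟨g₃, hg₃, hg₃z⟩ := hinv g₂
    rw [hg₂, hzx, hg₃] at hg₃z
    exact hxy hg₃z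
  let O : Finset Ω := (orbit (stabilizer G x) y).toFinset
  have hO : ∀ y', y' ∈ O ↔ y' ∈ orbit (stabilizer G x) y := by
    intro y'
    simp [O]
  have hcount := Finset.sum_card_bipartiteAbove_eq_sum_card_bipartiteBelow
    (s := (Finset.univ : Finset Ω)) (t := O) (fun z y' => z ∈ Dist G x y')
  have h1 : Nat.card Ω ≤ ∑ z : Ω, (O.bipartiteAbove (fun z y' => z ∈ Dist G x y') z).card := by
    rw [Nat.card_eq_fintype_card, ← Finset.card_univ, Finset.card_eq_sum_ones]
    apply Finset.sum_le_sum
    intro z _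
    obtain ⟨y', hy', hz⟩ := hclaim z
    exact Finset.card_pos.mpr ⟨y', by simp [Finset.bipartiteAbove, hz, (hO y').mpr hy']⟩
  have h2 : ∑ y' ∈ O, ((Finset.univ : Finset Ω).bipartiteBelow (fun z y' => z ∈ Dist G x y') y').card
      = O.card * dd G x y := by
    rw [Finset.sum_const_nat (m := dd G x y)]
    intro y' hy'
    rw [← dd_of_mem_orbit ((hO y').mp hy')]
    unfold dd
    rw [← Set.ncard_coe_finset]
    congr 1
    ext z
    simp [Finset.bipartiteBelow]
  have h3 : O.card = (orbit (stabilizer G x) y).ncard := by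
    rw [← Set.ncard_coe_finset]
    congr 1
    ext z
    simp [O]
  rw [← h3, ← h2, ← hcount]
  exact h1

/-- Some point is far from `u` when all suborbits are small. -/
theorem exists_far (k : ℕ) (hk : ∀ z u : Ω, (orbit (stabilizer G z) u).ncard ≤ k) (u : Ω) :
    ∃ v : Ω, Nat.card Ω - k ≤ dd G u v := by
  classical
  haveI := Fintype.ofFinite Ω
  by_contra hc
  push Not at hc
  have hcount := Finset.sum_card_bipartiteAbove_eq_sum_card_bipartiteBelow
    (s := (Finset.univ : Finset Ω)) (t := (Finset.univ : Finset Ω)) (fun z v => z ∈ Dist G u v)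
  have hpos : 0 < Nat.card Ω := Nat.card_pos_iff.mpr ⟨⟨u⟩, inferInstance⟩
  have h1 : ∑ v : Ω, ((Finset.univ : Finset Ω).bipartiteBelow (fun z v => z ∈ Dist G u v) v).card
      < Nat.card Ω * (Nat.card Ω - k) := by
    have hne : (Finset.univ : Finset Ω).Nonempty := ⟨u, Finset.mem_univ _⟩
    calc ∑ v : Ω, ((Finset.univ : Finset Ω).bipartiteBelow (fun z v => z ∈ Dist G u v) v).card
        < ∑ _v : Ω, (Nat.card Ω - k) := by
          apply Finset.sum_lt_sum_of_nonempty hne
          intro v _
          have := hc v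
          unfold dd at this
          rw [← Set.ncard_coe_finset]
          convert this using 2
          ext z
          simp [Finset.bipartiteBelow]
      _ = Nat.card Ω * (Nat.card Ω - k) := by
          rw [Finset.sum_const, Finset.card_univ, smul_eq_mul, Nat.card_eq_fintype_card]
  have h2 : Nat.card Ω * (Nat.card Ω - k) ≤
      ∑ z : Ω, ((Finset.univ : Finset Ω).bipartiteAbove (fun z v => z ∈ Dist G u v) z).card := by
    have h3 : ∑ _z : Ω, (Nat.card Ω - k) = Nat.card Ω * (Nat.card Ω - k) := by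
      rw [Finset.sum_const, Finset.card_univ, smul_eq_mul, Nat.card_eq_fintype_card]
    rw [← h3]
    apply Finset.sum_le_sum
    intro z _
    have h4 : ((Finset.univ : Finset Ω).bipartiteAbove (fun z v => z ∈ Dist G u v) z : Set Ω)
        = (orbit (stabilizer G z) u)ᶜ := by
      ext v
      simp [Finset.bipartiteAbove, mem_Dist_iff_notMem_orbit]
    rw [← Set.ncard_coe_finset, h4]
    have h5 := Set.ncard_add_ncard_compl (orbit (stabilizer G z) u)
    have h6 := hk z u
    omega
  rw [hcount] at h2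
  omega

end primitive

end Cfsg.Agent.Lib.MinDeg
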