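import Mathlib
import Cfsg.Agent.Lib.MinDeg.Dist

/-!
The lower bound for distinguishing numbers in primitive groups of rank at least three.
-/

set_option autoImplicit false

namespace Cfsg.Agent.Lib.MinDeg

open MulAction

open scoped Pointwise

universe u v

variable {G : Type u} {Ω : Type v} [Group G] [MulAction G Ω] [Finite G] [Finite Ω]

/-- The edges of the orbital graph of `(x, y)`. -/
def Ed (G : Type u) {Ω : Type v} [Group G] [MulAction G Ω] (x y a b : Ω) : Prop :=
  ∃ g : G, (g • x = a ∧ g • y = b) ∨ (g • x = b ∧ g • y = a)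

theorem dd_of_Ed {x y a b : Ω} (h : Ed G x y a b) : dd G a b = dd G x y := by
  obtain ⟨g, ⟨rfl, rfl⟩ | ⟨rfl, rfl⟩⟩ := h
  · exact dd_smul g x y
  · rw [dd_comm]
    exact dd_smul g x y

theorem Ed.symm {x y a b : Ω} (h : Ed G x y a b) : Ed G x y b a := by
  obtain ⟨g, h | h⟩ := h
  · exact ⟨g, Or.inr h⟩
  · exact ⟨g, Or.inl h⟩

theorem Ed.smul {x y a b : Ω} (h : Ed G x y a b) (g : G) : Ed G x y (g • a) (g • b) := by
  obtain ⟨g', ⟨rfl, rfl⟩ | ⟨rfl, rfl⟩⟩ := h
  · exact ⟨g * g', Or.inl ⟨mul_smul _ _ _, mul_smul _ _ _⟩⟩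
  · exact ⟨g * g', Or.inr ⟨mul_smul _ _ _, mul_smul _ _ _⟩⟩

/-- All points are connected by the orbital graph. -/
theorem connected [IsPreprimitive G Ω] {x y : Ω} (hxy : x ≠ y) (a b : Ω) :
    Relation.ReflTransGen (Ed G x y) a b := by
  let N : Ω → Set Ω := fun a => {b | Relation.ReflTransGen (Ed G x y) a b}
  have hmap : ∀ (g : G) {a b : Ω}, Relation.ReflTransGen (Ed G x y) a b →
      Relation.ReflTransGen (Ed G x y) (g • a) (g • b) := by
    intro g a b hab
    induction hab with
    | refl => exact Relation.ReflTransGen.refl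
    | tail _ he ih => exact ih.tail (he.smul g)
  have hN : ∀ (g : G) (a : Ω), N (g • a) = g • N a := by
    intro g a
    ext w
    constructor
    · intro hw
      refine Set.mem_smul_set.mpr ⟨g⁻¹ • w, ?_, by simp⟩
      have := hmap g⁻¹ hw
      rw [inv_smul_smul] at this
      exact this
    · intro hw
      obtain ⟨w', hw', rfl⟩ := Set.mem_smul_set.mp hw
      exact hmap g hw'
  have hsym : ∀ {a b : Ω}, Relation.ReflTransGen (Ed G x y) a b →
      Relation.ReflTransGen (Ed G x y) b a := by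
    intro a b hab
    induction hab with
    | refl => exact Relation.ReflTransGen.refl
    | tail _ he ih => exact Relation.ReflTransGen.head he.symm ih
  have hxyE : Ed G x y x y := ⟨1, Or.inl ⟨one_smul _ _, one_smul _ _⟩⟩
  have h1 : N x = N y := by
    ext w
    constructor
    · intro hw
      exact Relation.ReflTransGen.head hxyE.symm hw
    · intro hw
      exact Relation.ReflTransGen.head hxyE hw
  have hall := eq_of_equivariant N hN hxy h1
  have ha : a ∈ N x := by
    rw [← hall a]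
    exact Relation.ReflTransGen.refl
  have hb : b ∈ N x := by
    rw [← hall b]
    exact Relation.ReflTransGen.refl
  exact (hsym ha).trans hb

/-- Points at distance at most two. -/
def R2 (G : Type u) {Ω : Type v} [Group G] [MulAction G Ω] (x y a b : Ω) : Prop :=
  a = b ∨ Ed G x y a b ∨ ∃ w, Ed G x y a w ∧ Ed G x y w b

theorem dd_of_R2 {x y a b : Ω} (h : R2 G x y a b) : dd G a b ≤ 2 * dd G x y := by
  rcases h with rfl | h | ⟨w, h₁, h₂⟩
  · rw [dd_self]
    omega
  · rw [dd_of_Ed h]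
    omega
  · have := dd_triangle (G := G) a w b
    rw [dd_of_Ed h₁, dd_of_Ed h₂] at this
    omega

theorem exists_exit {x y u v : Ω} (hc : Relation.ReflTransGen (Ed G x y) u v)
    (hv : ¬ R2 G x y u v) : ∃ a b, R2 G x y u a ∧ Ed G x y a b ∧ ¬ R2 G x y u b := by
  induction hc with
  | refl => exact absurd (Or.inl rfl) hv
  | @tail c d _ he ih =>
    by_cases hc' : R2 G x y u c
    · exact ⟨c, d, hc', he, hv⟩
    · exact ih hc'

/-- Pointwise form of the uniform lower bound at a far pair. -/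
theorem case_far [IsPreprimitive G Ω] {x y : Ω} (hxy : x ≠ y) (hR : ¬ ∀ a b, R2 G x y a b) :
    Nat.card Ω ≤ 3 * dd G x y ^ 2 := by
  push Not at hR
  obtain ⟨u, v, huv⟩ := hR
  obtain ⟨a, b, hua, hab, hub⟩ := exists_exit (connected hxy u v) huv
  have hd : dd G u b ≤ 3 * dd G x y := by
    have h1 := dd_triangle (G := G) u a b
    have h2 := dd_of_R2 hua
    rw [dd_of_Ed hab] at h1
    omega
  let In : Ω → Set Ω := fun c => {w | ∃ g : G, g • y = c ∧ g • x = w}
  have hsub : In u ⊆ Dist G u b := by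
    rintro w ⟨g, hg, rfl⟩ h hh hub'
    apply hub
    refine Or.inr (Or.inr ⟨g • x, ⟨g, Or.inr ⟨rfl, hg⟩⟩, ⟨h * g, Or.inl ⟨?_, ?_⟩⟩⟩)
    · rw [mul_smul]
      exact hh
    · rw [mul_smul, hg, hub']
  have hIn : In y = orbit (stabilizer G y) x := by
    ext w
    constructor
    · rintro ⟨g, hg, rfl⟩
      exact ⟨⟨g, hg⟩, rfl⟩
    · rintro ⟨⟨g, hg⟩, rfl⟩
      exact ⟨g, hg, rfl⟩
  have hcard : (In u).ncard = (In y).ncard := by
    obtain ⟨g, rfl⟩ := MulAction.exists_smul_eq G y u
    have h3 : In (g • y) = g • In y := by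
      ext w
      constructor
      · rintro ⟨g', hg', rfl⟩
        refine Set.mem_smul_set.mpr ⟨g⁻¹ • g' • x, ⟨g⁻¹ * g', ?_, by rw [mul_smul]⟩, by simp⟩
        rw [mul_smul, hg', inv_smul_smul]
      · intro hw
        obtain ⟨w', ⟨g', hg', rfl⟩, rfl⟩ := Set.mem_smul_set.mp hw
        exact ⟨g * g', by rw [mul_smul, hg'], by rw [mul_smul]⟩
    rw [h3, Set.ncard_smul_set]
  have h4 : (orbit (stabilizer G y) x).ncard ≤ dd G u b := by
    rw [← hIn, ← hcard]
    exact Set.ncard_le_ncard hsub (Set.toFinite _)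
  have h5 := card_le_mul (G := G) (Ne.symm hxy)
  rw [dd_comm] at h5
  calc Nat.card Ω ≤ (orbit (stabilizer G y) x).ncard * dd G x y := h5
    _ ≤ (3 * dd G x y) * dd G x y := Nat.mul_le_mul_right _ (h4.trans hd)
    _ = 3 * dd G x y ^ 2 := by ring

theorem orbit_disjoint_card {x w₁ w₂ : Ω} (h₁ : w₁ ≠ x) (h₂ : w₂ ≠ x)
    (hne : w₂ ∉ orbit (stabilizer G x) w₁) :
    (orbit (stabilizer G x) w₁).ncard + (orbit (stabilizer G x) w₂).ncard + 1 ≤ Nat.card Ω := by
  classical
  have hnx : ∀ w, w ≠ x → x ∉ orbit (stabilizer G x) w := by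
    rintro w hw ⟨⟨h, hh⟩, hhw⟩
    apply hw
    have hh' : h • x = x := hh
    have h1 : h • w = x := hhw
    exact MulAction.injective h (h1.trans hh'.symm)
  have hdisj : Disjoint (orbit (stabilizer G x) w₁) (orbit (stabilizer G x) w₂) := by
    rw [Set.disjoint_left]
    intro a ha hb
    apply hne
    have h3 : orbit (stabilizer G x) w₁ = orbit (stabilizer G x) a := (orbit_eq_iff.mpr ha).symm
    have h4 : orbit (stabilizer G x) w₂ = orbit (stabilizer G x) a := (orbit_eq_iff.mpr hb).symm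
    rw [h3, ← h4]
    exact mem_orbit_self w₂
  have h5 := Set.ncard_union_eq hdisj (Set.toFinite _) (Set.toFinite _)
  have h6 : (orbit (stabilizer G x) w₁ ∪ orbit (stabilizer G x) w₂) ⊂ Set.univ := by
    refine Set.ssubset_univ_iff.mpr ?_
    intro h0
    have : x ∈ orbit (stabilizer G x) w₁ ∪ orbit (stabilizer G x) w₂ := by
      rw [h0]
      trivial
    rcases this with h | h
    · exact hnx _ h₁ h
    · exact hnx _ h₂ h
  have h7 := Set.ncard_lt_ncard h6 (Set.toFinite _)
  rw [Set.ncard_univ] at h7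
  omega

/-- The main estimate for primitive groups of rank at least three. -/
theorem card_le_four_mul_sq [IsPreprimitive G Ω]
    (hrk : ∃ x₁ y₁ w₁ : Ω, y₁ ≠ x₁ ∧ w₁ ≠ x₁ ∧ ∀ h : G, h • x₁ = x₁ → h • y₁ ≠ w₁)
    {x y : Ω} (hxy : x ≠ y) : Nat.card Ω ≤ 4 * dd G x y ^ 2 := by
  classical
  by_cases hR : ∀ a b, R2 G x y a b
  swap
  · have := case_far hxy hR
    omega
  have hbound : ∀ a b, dd G a b ≤ 2 * dd G x y := fun a b => dd_of_R2 (hR a b)
  -- the largest suborbit
  haveI := Fintype.ofFinite Ω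
  have hne : (Finset.univ.filter fun w : Ω => w ≠ x).Nonempty := ⟨y, by simp [Ne.symm hxy]⟩
  obtain ⟨w₀, hw₀, hmax⟩ := Finset.exists_max_image _
    (fun w : Ω => (orbit (stabilizer G x) w).ncard) hne
  have hw₀x : w₀ ≠ x := by simpa using hw₀
  have hmax' : ∀ w, w ≠ x → (orbit (stabilizer G x) w).ncard ≤ (orbit (stabilizer G x) w₀).ncard :=
    fun w hw => hmax w (by simpa using hw)
  obtain ⟨k, hkdef⟩ : ∃ k, k = (orbit (stabilizer G x) w₀).ncard := ⟨_, rfl⟩
  have hk : ∀ z u : Ω, (orbit (stabilizer G z) u).ncard ≤ k := by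
    intro z u
    by_cases huz : u = z
    · subst huz
      have h1 : orbit (stabilizer G u) u = {u} := by
        ext w
        constructor
        · rintro ⟨⟨h, hh⟩, rfl⟩
          exact hh
        · rintro rfl
          exact mem_orbit_self _
      rw [h1, Set.ncard_singleton, hkdef]
      exact (Set.ncard_pos (Set.toFinite _)).mpr ⟨w₀, mem_orbit_self w₀⟩
    · obtain ⟨g, hg⟩ := MulAction.exists_smul_eq G z x
      have h1 := ncard_orbit_smul (G := G) g z u
      rw [hg] at h1
      rw [← h1, hkdef]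
      apply hmax'
      intro h0
      exact huz (MulAction.injective g (h0.trans hg.symm))
  obtain ⟨v, hv⟩ := exists_far (G := G) k hk x
  have hl : Nat.card Ω - k ≤ 2 * dd G x y := hv.trans (hbound x v)
  obtain ⟨l, hldef⟩ : ∃ l, l = Nat.card Ω - k := ⟨_, rfl⟩
  have hkn : k ≤ Nat.card Ω := by
    rw [hkdef, ← Set.ncard_univ]
    exact Set.ncard_le_ncard (Set.subset_univ _) (Set.toFinite _)
  obtain ⟨n, hn⟩ : ∃ n, n = Nat.card Ω := ⟨_, rfl⟩
  obtain ⟨δ, hδ⟩ : ∃ δ, δ = dd G x y := ⟨_, rfl⟩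
  rw [← hn, ← hδ]
  rw [← hldef, ← hδ] at hl
  by_cases hsq : n ≤ l ^ 2
  · nlinarith
  push Not at hsq
  have hnpos : 0 < n := by omega
  by_cases hyΛ : y ∈ orbit (stabilizer G x) w₀
  · -- the given pair lies in the largest suborbit
    have horb : orbit (stabilizer G x) y = orbit (stabilizer G x) w₀ := orbit_eq_iff.mpr hyΛ
    obtain ⟨w, hwx, hwΛ⟩ : ∃ w, w ≠ x ∧ w ∉ orbit (stabilizer G x) w₀ := by
      obtain ⟨x₁, y₁, w₁, hy₁, hw₁, hno⟩ := hrk
      obtain ⟨g, hg⟩ := MulAction.exists_smul_eq G x₁ x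
      have hgy : g • y₁ ≠ x := by
        intro h0
        exact hy₁ (MulAction.injective g (h0.trans hg.symm))
      have hgw : g • w₁ ≠ x := by
        intro h0
        exact hw₁ (MulAction.injective g (h0.trans hg.symm))
      by_cases h1 : g • y₁ ∈ orbit (stabilizer G x) w₀
      · refine ⟨g • w₁, hgw, ?_⟩
        intro h2
        have h3 : orbit (stabilizer G x) (g • w₁) = orbit (stabilizer G x) (g • y₁) := by
          rw [orbit_eq_iff.mpr h1, orbit_eq_iff.mpr h2]
        have h4 : g • y₁ ∈ orbit (stabilizer G x) (g • w₁) := by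
          rw [h3]
          exact mem_orbit_self _
        obtain ⟨⟨h, hh⟩, hhw⟩ := h4
        have hhx : h • x = x := hh
        have hhw' : h • g • w₁ = g • y₁ := hhw
        apply hno (g⁻¹ * h⁻¹ * g)
        · rw [mul_smul, mul_smul, hg, inv_smul_eq_iff.mpr hhx.symm, inv_smul_eq_iff, hg]
        · rw [mul_smul, mul_smul, inv_smul_eq_iff]
          exact (inv_smul_eq_iff.mpr hhw'.symm)
      · exact ⟨g • y₁, hgy, h1⟩
    have hc := orbit_disjoint_card (G := G) hw₀x hwx hwΛ
    rw [← hkdef, ← hn] at hc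
    have hle : (orbit (stabilizer G x) w).ncard + 1 ≤ l := by omega
    have hl2 : 2 ≤ l := by
      have : 0 < (orbit (stabilizer G x) w).ncard :=
        (Set.ncard_pos (Set.toFinite _)).mpr ⟨w, mem_orbit_self w⟩
      omega
    obtain ⟨g, hg⟩ := MulAction.exists_smul_eq G x w
    have h2k : n < 2 * k := by
      have : 2 * l < n := by nlinarith
      omega
    have hinter : (orbit (stabilizer G x) y ∩ orbit (stabilizer G w) (g • y)).Nonempty := by
      by_contra hemp
      rw [Set.not_nonempty_iff_eq_empty] at hemp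
      have h3 := Set.ncard_union_add_ncard_inter (orbit (stabilizer G x) y)
        (orbit (stabilizer G w) (g • y)) (Set.toFinite _) (Set.toFinite _)
      rw [hemp, Set.ncard_empty, add_zero] at h3
      have h4 : (orbit (stabilizer G x) y ∪ orbit (stabilizer G w) (g • y)).ncard ≤ n := by
        rw [hn, ← Set.ncard_univ]
        exact Set.ncard_le_ncard (Set.subset_univ _) (Set.toFinite _)
      have h5 : (orbit (stabilizer G w) (g • y)).ncard = k := by
        rw [← hg, ncard_orbit_smul, horb, hkdef]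
      have h6 : (orbit (stabilizer G x) y).ncard = k := by
        rw [horb, hkdef]
      omega
    obtain ⟨z, hz₁, hz₂⟩ := hinter
    have hdz₁ : dd G x z = δ := by
      rw [dd_of_mem_orbit hz₁, hδ]
    have hdz₂ : dd G w z = δ := by
      have h3 : dd G w z = dd G w (g • y) := dd_of_mem_orbit hz₂
      rw [h3, hδ, ← hg, dd_smul]
    have hdw : dd G x w ≤ 2 * δ := by
      have h3 := dd_triangle (G := G) x z w
      rw [hdz₁, dd_comm z w, hdz₂] at h3
      omega
    have hmain := card_le_mul (G := G) (x := x) (y := w) (Ne.symm hwx)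
    rw [← hn] at hmain
    have h6 : n ≤ l * (2 * δ) := by
      calc n ≤ (orbit (stabilizer G x) w).ncard * dd G x w := hmain
        _ ≤ l * (2 * δ) := Nat.mul_le_mul (by omega) hdw
    have h7 : n * n ≤ n * (4 * δ ^ 2) := by
      calc n * n ≤ (l * (2 * δ)) * (l * (2 * δ)) := Nat.mul_le_mul h6 h6
        _ = l ^ 2 * (4 * δ ^ 2) := by ring
        _ ≤ n * (4 * δ ^ 2) := Nat.mul_le_mul_right _ hsq.le
    exact Nat.le_of_mul_le_mul_left h7 hnpos
  · -- the given suborbit is not the largest one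
    have hc := orbit_disjoint_card (G := G) hw₀x (Ne.symm hxy) hyΛ
    rw [← hkdef, ← hn] at hc
    have hle : (orbit (stabilizer G x) y).ncard + 1 ≤ l := by omega
    have hmain := card_le_mul (G := G) hxy
    rw [← hn, ← hδ] at hmain
    have h6 : n ≤ l * δ := hmain.trans (Nat.mul_le_mul_right _ (by omega))
    have h7 : n * n ≤ n * (4 * δ ^ 2) := by
      calc n * n ≤ (l * δ) * (l * δ) := Nat.mul_le_mul h6 h6
        _ = l ^ 2 * δ ^ 2 := by ring
        _ ≤ n * (4 * δ ^ 2) := Nat.mul_le_mul hsq.le (by omega)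
    exact Nat.le_of_mul_le_mul_left h7 hnpos

end Cfsg.Agent.Lib.MinDeg
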