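import Mathlib
import Cfsg.Agent.Lib.MinDeg.Bound

/-!
The minimal degree of a primitive group not containing the alternating group.
-/

set_option autoImplicit false

namespace Cfsg.Agent.Lib.MinDeg

open MulAction Equiv.Perm

universe u v

theorem commutator_threeCycle {α : Type*} [Fintype α] [DecidableEq α] (σ τ : Equiv.Perm α) (x : α)
    (hσ : σ x ≠ x) (hτ : τ x ≠ x) (h : ∀ w, σ w ≠ w → τ w ≠ w → w = x) :
    (σ * τ * σ⁻¹ * τ⁻¹).IsThreeCycle := by
  obtain ⟨b, hb⟩ : ∃ b, b = σ x := ⟨_, rfl⟩
  obtain ⟨a, ha⟩ : ∃ a, a = τ x := ⟨_, rfl⟩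
  have hbx : b ≠ x := by rw [hb]; exact hσ
  have hax : a ≠ x := by rw [ha]; exact hτ
  have hτa : τ a ≠ a := by
    intro h0
    apply hax
    apply τ.injective
    rw [h0, ← ha]
  have hσb : σ b ≠ b := by
    intro h0
    apply hbx
    apply σ.injective
    rw [h0, ← hb]
  have hσa : σ a = a := by
    by_contra h0
    exact hax (h a h0 hτa)
  have hτb : τ b = b := by
    by_contra h0
    exact hbx (h b hσb h0)
  have hab : a ≠ b := by
    intro h0
    rw [h0] at hσa
    exact hσb hσa
  have key : σ * τ * σ⁻¹ * τ⁻¹ = Equiv.swap a b * Equiv.swap a x := by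
    ext w
    simp only [Equiv.Perm.mul_apply]
    by_cases hwx : w = x
    · subst hwx
      obtain ⟨a', ha'⟩ : ∃ a', τ a' = w := ⟨τ⁻¹ w, by simp⟩
      have h1 : a' ≠ w := by
        rintro rfl
        exact hτ ha'
      have h2 : σ a' = a' := by
        by_contra h0
        refine h1 (h a' h0 ?_)
        rw [ha']
        exact h1.symm
      have h3 : τ⁻¹ w = a' := by
        rw [← ha']
        simp
      have h4 : σ⁻¹ a' = a' := by
        rw [Equiv.Perm.inv_eq_iff_eq]
        exact h2.symm
      rw [h3, h4, ha', ← hb, Equiv.swap_apply_right, Equiv.swap_apply_left]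
    by_cases hwb : w = b
    · subst hwb
      have h3 : τ⁻¹ w = w := by
        rw [Equiv.Perm.inv_eq_iff_eq]
        exact hτb.symm
      have h4 : σ⁻¹ w = x := by
        rw [Equiv.Perm.inv_eq_iff_eq]
        exact hb
      rw [h3, h4, ← ha, hσa, Equiv.swap_apply_of_ne_of_ne hab.symm hwx, Equiv.swap_apply_right]
    by_cases hwa : w = a
    · subst hwa
      obtain ⟨b', hb'⟩ : ∃ b', σ b' = x := ⟨σ⁻¹ x, by simp⟩
      have h1 : b' ≠ x := by
        rintro rfl
        exact hσ hb'
      have h2 : τ b' = b' := by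
        by_contra h0
        refine h1 (h b' ?_ h0)
        rw [hb']
        exact h1.symm
      have h3 : τ⁻¹ w = x := by
        rw [Equiv.Perm.inv_eq_iff_eq]
        exact ha
      have h4 : σ⁻¹ x = b' := by
        rw [Equiv.Perm.inv_eq_iff_eq]
        exact hb'.symm
      rw [h3, h4, h2, hb', Equiv.swap_apply_left, Equiv.swap_apply_of_ne_of_ne hax.symm hbx.symm]
    have hr : Equiv.swap a b (Equiv.swap a x w) = w := by
      rw [Equiv.swap_apply_of_ne_of_ne hwa hwx, Equiv.swap_apply_of_ne_of_ne hwa hwb]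
    rw [hr]
    by_cases hτw : τ w = w
    · have h3 : τ⁻¹ w = w := by
        rw [Equiv.Perm.inv_eq_iff_eq]
        exact hτw.symm
      rw [h3]
      by_cases hσw : σ w = w
      · have h4 : σ⁻¹ w = w := by
          rw [Equiv.Perm.inv_eq_iff_eq]
          exact hσw.symm
        rw [h4, hτw, hσw]
      · obtain ⟨v, hv⟩ : ∃ v, σ v = w := ⟨σ⁻¹ w, by simp⟩
        have h4 : σ⁻¹ w = v := by
          rw [← hv]
          simp
        have hvx : v ≠ x := by
          rintro rfl
          exact hwb (hv.symm.trans hb.symm)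
        have hvw : σ v ≠ v := by
          intro h0
          have hvw' : v = w := h0.symm.trans hv
          rw [hvw'] at h0
          exact hσw h0
        have h5 : τ v = v := by
          by_contra h0
          exact hvx (h v hvw h0)
        rw [h4, h5, hv]
    · obtain ⟨u, hu⟩ : ∃ u, τ u = w := ⟨τ⁻¹ w, by simp⟩
      have h3 : τ⁻¹ w = u := by
        rw [← hu]
        simp
      have hux : u ≠ x := by
        rintro rfl
        exact hwa (hu.symm.trans ha.symm)
      have huw : τ u ≠ u := by
        intro h0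
        have huw' : u = w := h0.symm.trans hu
        rw [huw'] at h0
        exact hτw h0
      have h4 : σ u = u := by
        by_contra h0
        exact hux (h u h0 huw)
      have h5 : σ⁻¹ u = u := by
        rw [Equiv.Perm.inv_eq_iff_eq]
        exact h4.symm
      have h6 : σ w = w := by
        by_contra h0
        exact hwx (h w h0 hτw)
      rw [h3, h5, hu, h6]
  rw [key]
  exact Equiv.Perm.isThreeCycle_swap_mul_swap_same hab hax hbx

section trans

variable {G : Type u} {Ω : Type v} [Group G] [MulAction G Ω] [FaithfulSMul G Ω] [Finite G] [Finite Ω]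

/-- Counting in the point stabilizer of a doubly transitive group. -/
theorem exists_avoid (h2 : ∀ x y w : Ω, y ≠ x → w ≠ x → ∃ h : G, h • x = x ∧ h • y = w) (x₀ : Ω)
    (T : Finset Ω) (hT : x₀ ∉ T) (hcard : T.card ^ 2 + 1 < Nat.card Ω) :
    ∃ h : G, h • x₀ = x₀ ∧ ∀ t ∈ T, h • t ∉ T := by
  classical
  haveI := Fintype.ofFinite Ω
  haveI := Fintype.ofFinite (stabilizer G x₀)
  let H := stabilizer G x₀
  let F : Ω → Ω → ℕ := fun t t' => (Finset.univ.filter fun h : H => h • t = t').card
  have hHpos : 0 < Fintype.card H := Fintype.card_pos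
  have hF : ∀ t t', t ≠ x₀ → t' ≠ x₀ → (Nat.card Ω - 1) * F t t' = Fintype.card H := by
    intro t t' ht ht'
    have hsame : ∀ w, w ≠ x₀ → F t w = F t t' := by
      intro w hw
      obtain ⟨h₀, h₀x, h₀w⟩ := h2 x₀ t' w ht' hw
      let h₀' : H := ⟨h₀, h₀x⟩
      refine Finset.card_equiv (Equiv.mulLeft h₀'⁻¹) ?_
      intro h
      simp only [Finset.mem_filter, Finset.mem_univ, true_and, Equiv.coe_mulLeft]
      constructor
      · intro hh
        rw [mul_smul, hh]
        change h₀⁻¹ • w = t'
        rw [inv_smul_eq_iff, h₀w]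
      · intro hh
        rw [mul_smul] at hh
        have h1 : h • t = h₀' • t' := by
          rw [← hh, smul_inv_smul]
        rw [h1]
        exact h₀w
    have hfib := Finset.card_eq_sum_card_fiberwise (s := (Finset.univ : Finset H))
      (t := Finset.univ.erase x₀) (f := fun h : H => h • t) (by
        intro h _
        simp only [Finset.coe_erase, Finset.coe_univ, Set.mem_diff, Set.mem_univ, Set.mem_singleton_iff,
          true_and]
        intro h0
        apply ht
        have h1 : (h : G) • x₀ = x₀ := h.2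
        exact MulAction.injective (h : G) (h0.trans h1.symm))
    rw [Finset.card_univ] at hfib
    rw [hfib, Finset.sum_congr rfl (fun w hw => hsame w (Finset.ne_of_mem_erase hw)),
      Finset.sum_const, Finset.card_erase_of_mem (Finset.mem_univ _), Finset.card_univ,
      Nat.card_eq_fintype_card, smul_eq_mul]
  by_contra hc
  push Not at hc
  have hall : ∀ h : H, ∃ t ∈ T, ∃ t' ∈ T, h • t = t' := by
    intro h
    obtain ⟨t, ht, ht'⟩ := hc h h.2
    exact ⟨t, ht, _, ht', rfl⟩
  have hsub : (Finset.univ : Finset H) ⊆ T.biUnion fun t => T.biUnion fun t' =>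
      Finset.univ.filter fun h : H => h • t = t' := by
    intro h _
    obtain ⟨t, ht, t', ht', he⟩ := hall h
    simp only [Finset.mem_biUnion, Finset.mem_filter, Finset.mem_univ, true_and]
    exact ⟨t, ht, t', ht', he⟩
  have hle : Fintype.card H ≤ ∑ t ∈ T, ∑ t' ∈ T, F t t' := by
    rw [← Finset.card_univ]
    refine (Finset.card_le_card hsub).trans ?_
    refine Finset.card_biUnion_le.trans (Finset.sum_le_sum fun t _ => Finset.card_biUnion_le)
  have hmul : (Nat.card Ω - 1) * Fintype.card H ≤ T.card ^ 2 * Fintype.card H := by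
    calc (Nat.card Ω - 1) * Fintype.card H ≤ (Nat.card Ω - 1) * ∑ t ∈ T, ∑ t' ∈ T, F t t' :=
          Nat.mul_le_mul_left _ hle
      _ = ∑ t ∈ T, ∑ t' ∈ T, (Nat.card Ω - 1) * F t t' := by
          rw [Finset.mul_sum]
          simp only [Finset.mul_sum]
      _ = ∑ _t ∈ T, ∑ _t' ∈ T, Fintype.card H := by
          refine Finset.sum_congr rfl fun t ht => Finset.sum_congr rfl fun t' ht' => ?_
          exact hF t t' (fun h0 => hT (h0 ▸ ht)) (fun h0 => hT (h0 ▸ ht'))
      _ = T.card ^ 2 * Fintype.card H := by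
          simp only [Finset.sum_const, smul_eq_mul]
          ring
  have := Nat.le_of_mul_le_mul_right hmul hHpos
  omega

/-- Doubly transitive groups not containing the alternating group. -/
theorem two_trans_bound [Fintype Ω] [DecidableEq Ω] [IsPreprimitive G Ω]
    (h2 : ∀ x y w : Ω, y ≠ x → w ≠ x → ∃ h : G, h • x = x ∧ h • y = w)
    (hA : ¬ alternatingGroup Ω ≤ (MulAction.toPermHom G Ω).range) (g : G) (hg : g ≠ 1) :
    Nat.card Ω ≤ {ω : Ω | g • ω ≠ ω}.ncard ^ 2 + 1 := by
  classical
  obtain ⟨x₀, hx₀⟩ : ∃ x₀ : Ω, g • x₀ ≠ x₀ := by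
    by_contra hc
    push Not at hc
    apply hg
    apply FaithfulSMul.eq_of_smul_eq_smul (α := Ω)
    intro ω
    rw [hc ω, one_smul]
  by_contra hn
  push Not at hn
  let S : Finset Ω := Finset.univ.filter fun ω => g • ω ≠ ω
  have hS : {ω : Ω | g • ω ≠ ω}.ncard = S.card := by
    rw [← Set.ncard_coe_finset]
    congr 1
    ext ω
    simp [S]
  let T : Finset Ω := S.erase x₀
  have hTc : T.card ≤ S.card := Finset.card_le_card (Finset.erase_subset _ _)
  have hcard : T.card ^ 2 + 1 < Nat.card Ω := by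
    rw [hS] at hn
    have := Nat.pow_le_pow_left hTc 2
    omega
  obtain ⟨h, hh, hav⟩ := exists_avoid (G := G) h2 x₀ T (by simp [T]) hcard
  let f := MulAction.toPermHom G Ω
  let g' : G := h * g * h⁻¹
  have hh' : h⁻¹ • x₀ = x₀ := by
    rw [inv_smul_eq_iff, hh]
  have hσ : f g x₀ ≠ x₀ := hx₀
  have hτ : f g' x₀ ≠ x₀ := by
    change (h * g * h⁻¹) • x₀ ≠ x₀
    rw [mul_smul, mul_smul, hh']
    intro h0
    exact hx₀ (MulAction.injective h (h0.trans hh.symm))
  have hcond : ∀ w, f g w ≠ w → f g' w ≠ w → w = x₀ := by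
    intro w h1 h3
    by_contra hw
    have h4 : w ∈ T := by
      simp only [T, S, Finset.mem_erase, Finset.mem_filter, Finset.mem_univ, true_and]
      exact ⟨hw, h1⟩
    have h5 : h⁻¹ • w ∈ T := by
      simp only [T, S, Finset.mem_erase, Finset.mem_filter, Finset.mem_univ, true_and]
      refine ⟨?_, ?_⟩
      · intro h0
        apply hw
        rw [inv_smul_eq_iff, hh] at h0
        exact h0
      · intro h0
        apply h3
        change (h * g * h⁻¹) • w = w
        rw [mul_smul, mul_smul, h0, smul_inv_smul]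
    have h6 := hav _ h5
    rw [smul_inv_smul] at h6
    exact h6 h4
  have h3c := commutator_threeCycle (f g) (f g') x₀ hσ hτ hcond
  apply hA
  have hprim : IsPreprimitive f.range Ω := by
    let j : G → f.range := fun a => ⟨f a, ⟨a, rfl⟩⟩
    let φ : Ω →ₑ[j] Ω := ⟨id, fun a ω => rfl⟩
    exact IsPreprimitive.of_surjective (f := φ) Function.surjective_id
  refine alternatingGroup_le_of_isPreprimitive_of_isThreeCycle_mem hprim h3c ?_
  exact ⟨g * g' * g⁻¹ * g'⁻¹, by
    simp only [map_mul, map_inv]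
    rfl⟩

end trans

/-- The minimal degree bound. -/
theorem min_degree {G : Type u} {Ω : Type v} [Group G] [Finite G] [MulAction G Ω] [FaithfulSMul G Ω]
    [Fintype Ω] [DecidableEq Ω] [IsPreprimitive G Ω]
    (hA : ¬ alternatingGroup Ω ≤ (MulAction.toPermHom G Ω).range) (g : G) (hg : g ≠ 1) :
    Nat.card Ω ≤ (2 * {ω : Ω | g • ω ≠ ω}.ncard + 1) ^ 2 := by
  by_cases h2 : ∀ x y w : Ω, y ≠ x → w ≠ x → ∃ h : G, h • x = x ∧ h • y = w
  · have := two_trans_bound h2 hA g hg
    obtain ⟨s, hs⟩ : ∃ s, s = {ω : Ω | g • ω ≠ ω}.ncard := ⟨_, rfl⟩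
    rw [← hs] at this ⊢
    nlinarith
  · push Not at h2
    obtain ⟨x₁, y₁, w₁, hy₁, hw₁, hno⟩ := h2
    obtain ⟨x, hx⟩ : ∃ x : Ω, g • x ≠ x := by
      by_contra hc
      push Not at hc
      apply hg
      apply FaithfulSMul.eq_of_smul_eq_smul (α := Ω)
      intro ω
      rw [hc ω, one_smul]
    have h1 := card_le_four_mul_sq (G := G) ⟨x₁, y₁, w₁, hy₁, hw₁, hno⟩ (Ne.symm hx)
    have h3 := dd_le_moved (G := G) g x
    obtain ⟨s, hs⟩ : ∃ s, s = {ω : Ω | g • ω ≠ ω}.ncard := ⟨_, rfl⟩
    rw [← hs] at h3 ⊢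
    have h4 := Nat.pow_le_pow_left h3 2
    nlinarith

end Cfsg.Agent.Lib.MinDeg
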